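import Mathlib
import Cfsg.Agent.H504.Zeros

/-!
# Three classes of `r`-singular elements from a cyclic torus

`exists_three_sing` : `T` cyclic, `r ∣ |T|`, the centralizers of the elements of order `r` of `T` lie in `T`,
`3 r ≤ |T|` : there are three non-conjugate elements of order divisible by `r`.
-/

set_option autoImplicit false

namespace Cfsg.Agent.H934.Two

open Cfsg.Agent.H504.Zeros Cfsg.Agent.H504.ZeroTI

variable {G : Type*} [Group G]

/-- elements `y` of a finite cyclic subgroup with `y ^ r = 1` are powers of an element of order `r` -/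
theorem mem_zpowers_of_cyclic {T : Subgroup G} [Finite T] (hT : IsCyclic T) {r : ℕ} (hr : 0 < r) {y z : G} (hy : y ∈ T)
    (hz : z ∈ T) (hyr : orderOf y = r) (hzr : z ^ r = 1) : z ∈ Subgroup.zpowers y := by
  classical
  have := Fintype.ofFinite T
  have h1 := IsCyclic.card_pow_eq_one_le (α := T) hr
  have h2 : (Subgroup.zpowers (⟨y, hy⟩ : T) : Set T).toFinset ⊆ Finset.univ.filter fun a : T => a ^ r = 1 := by
    intro a ha
    rw [Set.mem_toFinset] at ha
    obtain ⟨k, rfl⟩ := ha
    rw [Finset.mem_filter]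
    refine ⟨Finset.mem_univ _, ?_⟩
    have h3 : (⟨y, hy⟩ : T) ^ r = 1 := by
      apply Subtype.ext
      show y ^ r = 1
      rw [← hyr, pow_orderOf_eq_one]
    show ((⟨y, hy⟩ : T) ^ k) ^ r = 1
    rw [← zpow_natCast, ← zpow_mul, mul_comm, zpow_mul, zpow_natCast, h3, one_zpow]
  have h4 : ((Subgroup.zpowers (⟨y, hy⟩ : T) : Set T).toFinset).card = r := by
    rw [Set.toFinset_card, ← Nat.card_eq_fintype_card]
    show Nat.card (Subgroup.zpowers (⟨y, hy⟩ : T)) = r
    rw [Nat.card_zpowers, ← hyr, Subgroup.orderOf_mk]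
  have h5 := Finset.eq_of_subset_of_card_le h2 (by rw [h4]; exact h1)
  have h6 : (⟨z, hz⟩ : T) ∈ Finset.univ.filter fun a : T => a ^ r = 1 := by
    rw [Finset.mem_filter]
    exact ⟨Finset.mem_univ _, Subtype.ext hzr⟩
  rw [← h5, Set.mem_toFinset] at h6
  obtain ⟨k, hk⟩ := h6
  exact ⟨k, congrArg Subtype.val hk⟩

/-- **Three classes.** -/
theorem exists_three_sing [Finite G] {T : Subgroup G} (hT : IsCyclic T) {r : ℕ} (hr : r.Prime) (hrT : r ∣ Nat.card T)
    (hcent : ∀ y ∈ T, orderOf y = r → Subgroup.centralizer {y} ≤ T) (h3 : 3 * r ≤ Nat.card T) :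
    ∃ s : Finset G, NonConj s ∧ 3 ≤ s.card ∧ ∀ g ∈ s, r ∣ orderOf g := by
  classical
  have := Fintype.ofFinite T
  have := Fintype.ofFinite G
  have hrf : Fact r.Prime := ⟨hr⟩
  obtain ⟨⟨y, hyT⟩, hy⟩ := exists_prime_orderOf_dvd_card' (G := ↥T) r hrT
  rw [Subgroup.orderOf_mk] at hy
  have hcomm : ∀ a ∈ T, ∀ b ∈ T, a * b = b * a := by
    intro a ha b hb
    have := (IsCyclic.commGroup (α := T)).mul_comm ⟨a, ha⟩ ⟨b, hb⟩
    exact congrArg Subtype.val this
  -- the singular elements
  let S : Finset G := (Finset.univ.filter fun t : T => r ∣ orderOf (t : G)).image fun t : T => (t : G)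
  have hS : ∀ g, g ∈ S ↔ g ∈ T ∧ r ∣ orderOf g := by
    intro g
    constructor
    · intro hg
      obtain ⟨t, ht, rfl⟩ := Finset.mem_image.1 hg
      exact ⟨t.2, (Finset.mem_filter.1 ht).2⟩
    · rintro ⟨h1, h2⟩
      exact Finset.mem_image.2 ⟨⟨g, h1⟩, Finset.mem_filter.2 ⟨Finset.mem_univ _, h2⟩, rfl⟩
  obtain ⟨m, hm⟩ := hrT
  have hm3 : 3 ≤ m := by
    have h5 := hr.pos
    rw [hm, mul_comm 3 r] at h3
    exact Nat.le_of_mul_le_mul_left h3 h5
  have hScard : 3 * (r - 1) ≤ S.card := by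
    have h1 : S.card = (Finset.univ.filter fun t : T => r ∣ orderOf (t : G)).card :=
      Finset.card_image_of_injective _ Subtype.val_injective
    have h2 := Finset.card_filter_add_card_filter_not (s := (Finset.univ : Finset T)) (fun t : T => r ∣ orderOf (t : G))
    have h4 : (Finset.univ.filter fun t : T => ¬ r ∣ orderOf (t : G)).card ≤ m := by
      refine le_trans (Finset.card_le_card ?_) (IsCyclic.card_pow_eq_one_le (α := T) (n := m) (by omega))
      intro t ht
      rw [Finset.mem_filter] at ht ⊢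
      refine ⟨Finset.mem_univ _, ?_⟩
      have h5 : orderOf (t : G) ∣ r * m := by
        rw [← hm, Subgroup.orderOf_coe]
        exact orderOf_dvd_natCard t
      have h6 : (orderOf (t : G)).Coprime r := ((Nat.Prime.coprime_iff_not_dvd hr).2 ht.2).symm
      have h7 := h6.dvd_of_dvd_mul_left h5
      rw [Subgroup.orderOf_coe] at h7
      exact orderOf_dvd_iff_pow_eq_one.1 h7
    rw [Finset.card_univ, ← Nat.card_eq_fintype_card, hm] at h2
    have h5 : r * m = (r - 1) * m + m := by
      obtain ⟨k, hk⟩ : ∃ k, r = k + 1 := ⟨r - 1, by have := hr.pos; omega⟩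
      rw [hk, Nat.add_sub_cancel]; ring
    have h6 : 3 * (r - 1) ≤ (r - 1) * m := by
      rw [mul_comm]; exact Nat.mul_le_mul_left _ hm3
    omega
  -- the classes
  have hclass : ∀ g ∈ S, (S.filter fun h => IsConj g h).card ≤ r - 1 := by
    intro g hg
    obtain ⟨hgT, hgr⟩ := (hS g).1 hg
    have hex : ∀ h ∈ S.filter (fun h => IsConj g h), ∃ c : G, c * g * c⁻¹ = h := fun h hh =>
      isConj_iff.1 (Finset.mem_filter.1 hh).2
    choose! c hc using hex
    obtain ⟨n, hn⟩ := hgr
    have hn0 : n ≠ 0 := by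
      rintro rfl
      rw [mul_zero] at hn
      exact (orderOf_pos g).ne' hn
    have hgn : orderOf (g ^ n) = r := by
      rw [orderOf_pow_of_dvd hn0 (by rw [hn]; exact dvd_mul_left _ _), hn, Nat.mul_div_cancel _ (Nat.pos_of_ne_zero hn0)]
    have hgnT : g ^ n ∈ T := T.pow_mem hgT n
    obtain ⟨j, hj⟩ : y ∈ Subgroup.zpowers (g ^ n) :=
      mem_zpowers_of_cyclic hT hr.pos hgnT hyT hgn (by rw [← hy, pow_orderOf_eq_one])
    have hj : (g ^ n) ^ j = y := hj
    let R : Finset G := ((Subgroup.zpowers y : Set G).toFinset).erase 1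
    have hRc : R.card = r - 1 := by
      rw [Finset.card_erase_of_mem (by rw [Set.mem_toFinset]; exact Subgroup.one_mem _), Set.toFinset_card,
        ← Nat.card_eq_fintype_card]
      show Nat.card (Subgroup.zpowers y) - 1 = r - 1
      rw [Nat.card_zpowers, hy]
    rw [← hRc]
    refine Finset.card_le_card_of_injOn (fun h => c h * y * (c h)⁻¹) ?_ ?_
    · intro h hh
      have hh' : h ∈ S.filter (fun h => IsConj g h) := hh
      have hhT := ((hS h).1 (Finset.mem_filter.1 hh').1).1
      have e1 : c h * y * (c h)⁻¹ = (h ^ n) ^ j := by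
        rw [← hj, ← conj_zpow, ← conj_pow, hc h hh']
      have e2 : (c h * y * (c h)⁻¹) ^ r = 1 := by
        rw [conj_pow, ← hy, pow_orderOf_eq_one]; group
      show c h * y * (c h)⁻¹ ∈ R
      rw [Finset.mem_erase, Set.mem_toFinset]
      refine ⟨?_, ?_⟩
      · intro h1
        have h2 : y = 1 := by
          have := congrArg (fun z => (c h)⁻¹ * z * c h) h1
          simpa [mul_assoc] using this
        rw [h2, orderOf_one] at hy
        exact hr.one_lt.ne hy
      · exact mem_zpowers_of_cyclic hT hr.pos hyT (by rw [e1]; exact T.zpow_mem (T.pow_mem hhT n) j) hy e2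
    · intro h hh k hk hhk
      have hh' : h ∈ S.filter (fun h => IsConj g h) := hh
      have hk' : k ∈ S.filter (fun h => IsConj g h) := hk
      have hhk : c h * y * (c h)⁻¹ = c k * y * (c k)⁻¹ := hhk
      have h1 : (c k)⁻¹ * c h ∈ T := by
        refine hcent y hyT hy ?_
        rw [Subgroup.mem_centralizer_singleton_iff]
        calc (c k)⁻¹ * c h * y = (c k)⁻¹ * (c h * y * (c h)⁻¹) * c h := by group
          _ = (c k)⁻¹ * (c k * y * (c k)⁻¹) * c h := by rw [hhk]
          _ = y * ((c k)⁻¹ * c h) := by group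
      have h2 := hcomm _ h1 g hgT
      rw [← hc h hh', ← hc k hk']
      calc c h * g * (c h)⁻¹ = c k * ((c k)⁻¹ * c h * g) * (c h)⁻¹ := by group
        _ = c k * (g * ((c k)⁻¹ * c h)) * (c h)⁻¹ := by rw [h2]
        _ = c k * g * (c k)⁻¹ := by group
  have hr2 := hr.two_le
  obtain ⟨g₁, hg₁⟩ := Finset.card_pos.1 (show 0 < S.card by omega)
  obtain ⟨g₂, hg₂, hg₂'⟩ := Finset.exists_mem_notMem_of_card_lt_card
    (show (S.filter fun h => IsConj g₁ h).card < S.card by have := hclass g₁ hg₁; omega)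
  obtain ⟨g₃, hg₃, hg₃'⟩ := Finset.exists_mem_notMem_of_card_lt_card
    (show ((S.filter fun h => IsConj g₁ h) ∪ (S.filter fun h => IsConj g₂ h)).card < S.card by
      have h1 := hclass g₁ hg₁
      have h2 := hclass g₂ hg₂
      have h4 := Finset.card_union_le (S.filter fun h => IsConj g₁ h) (S.filter fun h => IsConj g₂ h)
      omega)
  rw [Finset.mem_union, not_or] at hg₃'
  have h12 : ¬ IsConj g₁ g₂ := fun h => hg₂' (Finset.mem_filter.2 ⟨hg₂, h⟩)
  have h13 : ¬ IsConj g₁ g₃ := fun h => hg₃'.1 (Finset.mem_filter.2 ⟨hg₃, h⟩)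
  have h23 : ¬ IsConj g₂ g₃ := fun h => hg₃'.2 (Finset.mem_filter.2 ⟨hg₃, h⟩)
  have n12 : g₁ ≠ g₂ := fun h => h12 (h ▸ IsConj.refl _)
  have n13 : g₁ ≠ g₃ := fun h => h13 (h ▸ IsConj.refl _)
  have n23 : g₂ ≠ g₃ := fun h => h23 (h ▸ IsConj.refl _)
  refine ⟨{g₁, g₂, g₃}, ?_, ?_, ?_⟩
  · intro a ha b hb hab
    simp only [Finset.mem_insert, Finset.mem_singleton] at ha hb
    rcases ha with rfl | rfl | rfl <;> rcases hb with rfl | rfl | rfl
    · rfl
    · exact absurd hab h12
    · exact absurd hab h13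
    · exact absurd hab.symm h12
    · rfl
    · exact absurd hab h23
    · exact absurd hab.symm h13
    · exact absurd hab.symm h23
    · rfl
  · rw [Finset.card_insert_of_notMem, Finset.card_pair n23]
    simp only [Finset.mem_insert, Finset.mem_singleton, not_or]
    exact ⟨n12, n13⟩
  · intro g hg
    simp only [Finset.mem_insert, Finset.mem_singleton] at hg
    rcases hg with rfl | rfl | rfl
    · exact ((hS _).1 hg₁).2
    · exact ((hS _).1 hg₂).2
    · exact ((hS _).1 hg₃).2

end Cfsg.Agent.H934.Two
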